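import Groth.Agent.Gaga.H874.RNX
import Groth.Agent.Gaga.H976.Defs2
import Groth.Agent.S4205

/-!
# [KP] of S4310: a finitely presented sheaf supported in `V(J)` is killed by a power of `J`

* `idealAt_pow`;
* `exists_kills`.
-/

set_option autoImplicit false

open CategoryTheory AlgebraicGeometry TopologicalSpace Opposite

noncomputable section

namespace Groth.Agent.Gaga.H938.KillsProp

open Groth.Agent.Gaga.H975.ModSec Groth.Agent.Gaga.H986.Stalk Groth.Agent.Gaga.H986.Pull
open Groth.Agent.Gaga.H976.Defs Groth.Agent.Gaga.H976.Defs2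

variable {X : Scheme.{0}} [X.Over An.SC]

/-- The ideals of the holomorphic stalks generated by a power of an ideal sheaf. -/
theorem idealAt_pow (I : X.IdealSheafData) (n : ℕ) (x : An.Pts X) :
    idealAt (I ^ n) x = (idealAt I x) ^ n := by
  obtain ⟨U, hU, hxU, -⟩ := exists_isAffineOpen_mem_and_subset (U := (⊤ : X.Opens)) (x := x.pt) trivial
  rw [Groth.Agent.Gaga.H874.RNX.idealAt_eq (I ^ n) x ⟨U, hU⟩ hxU,
    Groth.Agent.Gaga.H874.RNX.idealAt_eq I x ⟨U, hU⟩ hxU, ← Ideal.map_pow]
  rfl

/-- **[KP]** the kill property (Nullstellensatz + compactness), without Oka. -/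
theorem exists_kills' [IsProper (X ↘ An.SC)]
    (N : An.AnMod X) (hN : N.IsFinitePresentation) (J : X.IdealSheafData)
    (h : SuppIn (J.support : Set X) N) : ∃ k : ℕ, Kills (J ^ k) N := by
  have hc : CompactSpace (An.top X) := ((Groth.Agent.S4205.result X).1 inferInstance).1
  have key := fun x : An.top X => Groth.Agent.Gaga.H874.RNX.killed_near N hN J h x
  choose V hxV k hV using key
  obtain ⟨t, ht⟩ := isCompact_univ.elim_finite_subcover
    (fun x : An.top X => (V x : Set (An.top X))) (fun x => (V x).isOpen)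
    (fun x _ => Set.mem_iUnion.2 ⟨x, hxV x⟩)
  refine ⟨t.sup k, fun (x : An.top X) b hb s => ?_⟩
  rw [idealAt_pow] at hb
  obtain ⟨y, hy⟩ := Set.mem_iUnion.1 (ht (Set.mem_univ x))
  obtain ⟨hyt, hxy⟩ := Set.mem_iUnion.1 hy
  exact hV y x hxy b (Ideal.pow_le_pow_right (Finset.le_sup hyt) hb) s

/-- **[KP]** in the form of helper976. -/
theorem exists_kills [IsReduced X] [IsProper (X ↘ An.SC)]
    (_hOka : ∀ (M N : An.AnMod X) (f : M ⟶ N), M.IsFinitePresentation → N.IsFinitePresentation →
      (Limits.kernel f).IsFinitePresentation)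
    (N : An.AnMod X) (hN : N.IsFinitePresentation) (J : X.IdealSheafData)
    (h : SuppIn (J.support : Set X) N) : ∃ k : ℕ, Kills (J ^ k) N :=
  exists_kills' N hN J h

end Groth.Agent.Gaga.H938.KillsProp
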